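import Cfsg.Agent.S2119
import Mathlib

/-!
Automorphisms of alternating groups in every degree at least five, up to squares.
-/

set_option autoImplicit false
open Equiv Equiv.Perm
open Cfsg.Agent.S2119

namespace CfsgLib.AltAutSq

variable {α : Type*} [Fintype α] [DecidableEq α]

/-- An automorphism preserving the class of three-cycles is conjugation by a permutation. -/
theorem mem_range_of_preserves (h4 : 4 ≤ Fintype.card α) (φ : MulAut (alternatingGroup α))
    (hpres : ∀ c : alternatingGroup α, (c : Perm α).IsThreeCycle → (φ c : Perm α).IsThreeCycle) :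
    φ ∈ (MulAut.conjNormal : Perm α →* MulAut (alternatingGroup α)).range := by
  obtain ⟨p, q, hpq⟩ : ∃ p q : α, p ≠ q := Fintype.exists_pair_of_one_lt_card (by omega)
  let C : {i : α // i ≠ p ∧ i ≠ q} → alternatingGroup α := fun i =>
    ⟨swap p q * swap q i.1,
      (cycle3_isThreeCycle hpq i.2.1.symm i.2.2.symm).mem_alternatingGroup⟩
  have hC : ∀ i, (C i : Perm α).IsThreeCycle := fun i =>
    cycle3_isThreeCycle hpq i.2.1.symm i.2.2.symm
  have hC1 : ∀ i, (C i : Perm α) p = q := fun i => (cycle3_apply hpq i.2.1.symm i.2.2.symm).1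
  have hC2 : ∀ i, (C i : Perm α) q = i.1 := fun i => (cycle3_apply hpq i.2.1.symm i.2.2.symm).2.1
  let X : {i : α // i ≠ p ∧ i ≠ q} → Perm α := fun i => φ (C i)
  have hX : ∀ i, (X i).IsThreeCycle := fun i => hpres _ (hC i)
  have hne : ∀ i j, i ≠ j → X j ≠ X i := by
    intro i j hij h
    have h' : C j = C i := φ.injective (Subtype.ext h)
    have := congrArg (fun g : alternatingGroup α => (g : Perm α) q) h'
    simp only [hC2] at this
    exact hij (Subtype.ext this.symm)
  have hpair : ∀ i j, i ≠ j → ∃ a, X i a ≠ a ∧ X j a = X i a := by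
    intro i j hij
    have e : ∀ i j : {i : α // i ≠ p ∧ i ≠ q}, i ≠ j → (C i * C j) * (C i * C j) = 1 ∧ C i * C j ≠ 1 := by
      intro i j hij
      have hij' : (i.1 : α) ≠ j.1 := fun h => hij (Subtype.ext h)
      obtain ⟨i1, i2, i3⟩ := cycle3_apply hpq i.2.1.symm i.2.2.symm
      obtain ⟨j1, j2, j3⟩ := cycle3_apply hpq j.2.1.symm j.2.2.symm
      have fi : ∀ z, z ≠ p → z ≠ q → z ≠ i.1 → (C i : Perm α) z = z := fun z a b c => by
        simp [C, swap_apply_of_ne_of_ne, a, b, c]
      have fj : ∀ z, z ≠ p → z ≠ q → z ≠ j.1 → (C j : Perm α) z = z := fun z a b c => by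
        simp [C, swap_apply_of_ne_of_ne, a, b, c]
      have i1' : (C i : Perm α) p = q := i1
      have i2' : (C i : Perm α) q = i.1 := i2
      have i3' : (C i : Perm α) i.1 = p := i3
      have j1' : (C j : Perm α) p = q := j1
      have j2' : (C j : Perm α) q = j.1 := j2
      have j3' : (C j : Perm α) j.1 = p := j3
      have fij := fi j.1 j.2.1 j.2.2 (Ne.symm hij')
      have fji := fj i.1 i.2.1 i.2.2 hij'
      refine ⟨?_, ?_⟩
      · ext z
        simp only [Subgroup.coe_mul, OneMemClass.coe_one, Perm.mul_apply, Perm.one_apply]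
        by_cases hz1 : z = p
        · subst hz1; rw [j1', i2', fji, i3']
        by_cases hz2 : z = q
        · subst hz2; rw [j2', fij, j3', i1']
        by_cases hz3 : z = i.1
        · subst hz3; rw [fji, i3', j1', i2']
        by_cases hz4 : z = j.1
        · subst hz4; rw [j3', i1', j2', fij]
        simp [fi, fj, hz1, hz2, hz3, hz4]
      · intro h
        have := congrArg (fun g : alternatingGroup α => (g : Perm α) p) h
        simp only [Subgroup.coe_mul, Perm.mul_apply, j1', i2', OneMemClass.coe_one,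
          Perm.one_apply] at this
        exact i.2.1 this
    obtain ⟨e1, e2⟩ := e i j hij
    refine common_edge (hX i) (hX j) ?_ ?_
    · have := congrArg (fun g => (φ g : Perm α)) e1
      simpa [X] using this
    · intro h
      apply e2
      apply φ.injective
      apply Subtype.ext
      simpa [X] using h
  obtain ⟨i0, j0, hij⟩ : ∃ i j : {i : α // i ≠ p ∧ i ≠ q}, i ≠ j := by
    have : 1 < (Finset.univ \ {p, q} : Finset α).card := by
      rw [Finset.card_sdiff, Finset.inter_univ, Finset.card_univ, Finset.card_pair hpq]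
      omega
    obtain ⟨b, hb, c, hc, hbc⟩ := Finset.one_lt_card.1 this
    simp at hb hc
    exact ⟨⟨b, hb⟩, ⟨c, hc⟩, fun h => hbc (congrArg Subtype.val h)⟩
  obtain ⟨a, ha, ha'⟩ := hpair i0 j0 hij
  have hab : ∀ k, X k a = X i0 a := by
    intro k
    by_cases hk : k = i0
    · rw [hk]
    by_cases hk' : k = j0
    · rw [hk', ha']
    obtain ⟨u, hu, hu'⟩ := hpair i0 k (Ne.symm hk)
    obtain ⟨v, hv, hv'⟩ := hpair j0 k (Ne.symm hk')
    exact common_edge_three (hX i0) (hX j0) (hX k) (hne _ _ hij) ha ha' hu hu' hv hv'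
  obtain ⟨b, hb⟩ : ∃ b, b = X i0 a := ⟨_, rfl⟩
  rw [← hb] at ha hab
  have hm : ∀ k, X k a ≠ a := fun k => by rw [hab k]; exact ha
  have hf1 : ∀ k, X k b ≠ b := fun k => by rw [← hab k]; exact moved1 (hm k)
  have hf2 : ∀ k, X k b ≠ a := fun k => by rw [← hab k]; exact third_ne (hX k) (hm k)
  have hf3 : ∀ k, X k (X k b) = a := fun k => by rw [← hab k, rot (hX k)]
  have hf4 : ∀ i j, X i b = X j b → i = j := by
    intro i j h
    by_contra hne'
    exact hne i j hne' (eq_of_two (hX i) (hX j) (hm i) (by rw [hab i, hab j]) (by rw [hab i, h]))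
  let f : α → α := fun z =>
    if hp : z = p then a else if hq : z = q then b else X ⟨z, hp, hq⟩ b
  have fp : f p = a := by simp [f]
  have fq : f q = b := by simp [f, hpq.symm]
  have fi : ∀ i : {i : α // i ≠ p ∧ i ≠ q}, f i.1 = X i b := fun i => by simp [f, i.2.1, i.2.2]
  have finj : Function.Injective f := by
    intro y z h
    simp only [f] at h
    split_ifs at h with h1 h2 h3 h4 h5 h6 h7 h8
    all_goals first
      | (subst_vars; rfl)
      | exact absurd h (by first | exact ha | exact Ne.symm ha)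
      | exact absurd h (hf2 _)
      | exact absurd h.symm (hf2 _)
      | exact absurd h (hf1 _)
      | exact absurd h.symm (hf1 _)
      | exact congrArg Subtype.val (hf4 _ _ h)
  let σ : Perm α := Equiv.ofBijective f (Finite.injective_iff_bijective.1 finj)
  refine ⟨σ, ?_⟩
  have hCσ : ∀ i, (MulAut.conjNormal σ (C i) : Perm α) = φ (C i) := by
    intro i
    rw [MulAut.conjNormal_apply, mul_inv_eq_iff_eq_mul]
    ext z
    simp only [Perm.mul_apply]
    show f ((C i : Perm α) z) = X i (f z)
    by_cases hz1 : z = p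
    · subst hz1; rw [hC1, fp, fq, hab]
    by_cases hz2 : z = q
    · subst hz2; rw [hC2, fi, fq]
    by_cases hz3 : z = i.1
    · subst hz3
      rw [(cycle3_apply hpq i.2.1.symm i.2.2.symm).2.2, fp, fi, hf3]
    have e : (C i : Perm α) z = z := by simp [C, swap_apply_of_ne_of_ne, hz1, hz2, hz3]
    rw [e]
    refine (fix_of_ne (hX i) (hm i) ?_ ?_ ?_).symm
    · rw [← fp]; exact fun h => hz1 (finj h)
    · rw [hab, ← fq]; exact fun h => hz2 (finj h)
    · rw [hab, ← fi]; exact fun h => hz3 (finj h)
  let E : Subgroup (alternatingGroup α) :=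
    MonoidHom.eqLocus (MulAut.conjNormal σ : MulAut (alternatingGroup α)).toMonoidHom φ.toMonoidHom
  apply MulEquiv.ext
  intro g
  suffices hg : g ∈ E from hg
  have : (g : Perm α) ∈ E.map (alternatingGroup α).subtype := by
    have hle : alternatingGroup α ≤ E.map (alternatingGroup α).subtype := by
      refine le_trans closure_three_cycles_eq_alternating.ge ?_
      rw [Subgroup.closure_le]
      intro x hx
      refine closure_star hpq h4 _ (fun i hi hi' => ?_) hx
      exact ⟨C ⟨i, hi, hi'⟩, Subtype.ext (hCσ _), rfl⟩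
    exact hle g.2
  obtain ⟨e, he, heq⟩ := this
  exact (Subtype.ext heq : e = g) ▸ he

theorem count_six : (Finset.univ.filter fun x : Perm (Fin 6) => x ^ 3 = 1 ∧ x.support.card = 3).card = 40 ∧
    (Finset.univ.filter fun x : Perm (Fin 6) => x ^ 3 = 1 ∧ x.support.card = 6).card = 40 := by
  constructor <;> decide +kernel

theorem support_six : ∀ x : Perm (Fin 6), x ^ 3 = 1 → x ≠ 1 → x.support.card = 3 ∨ x.support.card = 6 := by
  decide +kernel

theorem even_six : ∀ x : Perm (Fin 6), x ^ 3 = 1 → Equiv.Perm.sign x = 1 := by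
  decide +kernel

/-- The square of every automorphism is conjugation by a permutation. -/
theorem sq_mem_range {n : ℕ} (hn : 5 ≤ n) (φ : MulAut (alternatingGroup (Fin n))) :
    φ * φ ∈ (MulAut.conjNormal : Perm (Fin n) →* MulAut (alternatingGroup (Fin n))).range := by
  by_cases h6 : n = 6
  swap
  · obtain ⟨σ, hσ⟩ := (Cfsg.Agent.S2119.result n (by omega) h6).2 φ
    exact Subgroup.mul_mem _ ⟨σ, hσ⟩ ⟨σ, hσ⟩
  subst h6
  refine mem_range_of_preserves (by simp) _ ?_
  by_cases hp : ∀ c : alternatingGroup (Fin 6), (c : Perm (Fin 6)).IsThreeCycle → (φ c : Perm (Fin 6)).IsThreeCycle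
  · intro c hc
    exact hp _ (hp c hc)
  push Not at hp
  obtain ⟨c₀, hc₀, hn₀⟩ := hp
  have hord : ∀ (ψ : MulAut (alternatingGroup (Fin 6))) (c : alternatingGroup (Fin 6)),
      (c : Perm (Fin 6)) ^ 3 = 1 → (ψ c : Perm (Fin 6)) ^ 3 = 1 := by
    intro ψ c hc
    have : c ^ 3 = 1 := Subtype.ext hc
    have := congrArg ψ this
    rw [map_pow, map_one] at this
    exact congrArg Subtype.val this
  have hpow : ∀ c : Perm (Fin 6), c.IsThreeCycle → c ^ 3 = 1 := fun c hc => by rw [← hc.orderOf, pow_orderOf_eq_one]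
  -- every three-cycle goes to the other class
  have hall : ∀ c : alternatingGroup (Fin 6), (c : Perm (Fin 6)).IsThreeCycle →
      ¬ (φ c : Perm (Fin 6)).IsThreeCycle := by
    intro c hc h
    obtain ⟨g, hg⟩ := isConj_iff.1 (alternatingGroup.isThreeCycle_isConj (by simp) hc₀ hc)
    apply hn₀
    have e : (φ c : Perm (Fin 6)) = (φ g : Perm (Fin 6)) * φ c₀ * (φ g : Perm (Fin 6))⁻¹ := by
      rw [← hg, map_mul, map_mul, map_inv]
      rfl
    unfold IsThreeCycle at h ⊢
    rwa [e, cycleType_conj] at h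
  let T : Finset (alternatingGroup (Fin 6)) :=
    Finset.univ.filter fun c => (c : Perm (Fin 6)) ^ 3 = 1 ∧ (c : Perm (Fin 6)).support.card = 3
  let D : Finset (alternatingGroup (Fin 6)) :=
    Finset.univ.filter fun c => (c : Perm (Fin 6)) ^ 3 = 1 ∧ (c : Perm (Fin 6)).support.card = 6
  have hcardT : T.card = 40 := by
    refine Eq.trans (Finset.card_bij (fun c _ => (c : Perm (Fin 6))) (fun c hc => ?_)
      (fun c _ d _ e => Subtype.ext e) fun x hx => ?_) count_six.1
    · exact Finset.mem_filter.2 ⟨Finset.mem_univ _, (Finset.mem_filter.1 hc).2⟩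
    · exact ⟨⟨x, even_six x (Finset.mem_filter.1 hx).2.1⟩, Finset.mem_filter.2 ⟨Finset.mem_univ _, (Finset.mem_filter.1 hx).2⟩, rfl⟩
  have hcardD : D.card = 40 := by
    refine Eq.trans (Finset.card_bij (fun c _ => (c : Perm (Fin 6))) (fun c hc => ?_)
      (fun c _ d _ e => Subtype.ext e) fun x hx => ?_) count_six.2
    · exact Finset.mem_filter.2 ⟨Finset.mem_univ _, (Finset.mem_filter.1 hc).2⟩
    · exact ⟨⟨x, even_six x (Finset.mem_filter.1 hx).2.1⟩, Finset.mem_filter.2 ⟨Finset.mem_univ _, (Finset.mem_filter.1 hx).2⟩, rfl⟩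
  have hTD : T.image φ ⊆ D := by
    intro d hd
    simp only [Finset.mem_image, T, D, Finset.mem_filter, Finset.mem_univ, true_and] at hd ⊢
    obtain ⟨c, ⟨hc1, hc2⟩, rfl⟩ := hd
    refine ⟨hord φ c hc1, (support_six _ (hord φ c hc1) fun e => ?_).resolve_left fun e => ?_⟩
    · have : c = 1 := φ.injective (by rw [map_one]; exact Subtype.ext e)
      rw [this] at hc2
      simp at hc2
    · exact hall c (card_support_eq_three_iff.1 hc2) (card_support_eq_three_iff.1 e)
  have heq : T.image φ = D :=
    Finset.eq_of_subset_of_card_le hTD (by rw [Finset.card_image_of_injective _ φ.injective, hcardT, hcardD])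
  intro c hc
  have hc' : c ∈ T := by
    simp only [T, Finset.mem_filter, Finset.mem_univ, true_and]
    exact ⟨hpow _ hc, hc.card_support⟩
  have hd : φ c ∈ D := hTD (Finset.mem_image_of_mem _ hc')
  show (φ (φ c) : Perm (Fin 6)).IsThreeCycle
  simp only [D, Finset.mem_filter, Finset.mem_univ, true_and] at hd
  have h3 := hord φ (φ c) hd.1
  refine card_support_eq_three_iff.1 ((support_six _ h3 fun e => ?_).resolve_right fun e => ?_)
  · have : φ (φ c) = φ (φ 1) := by simp only [map_one]; exact Subtype.ext e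
    rw [φ.injective (φ.injective this)] at hc'
    simp [T] at hc'
  · have : φ (φ c) ∈ T.image φ := by
      rw [heq]
      simp only [D, Finset.mem_filter, Finset.mem_univ, true_and]
      exact ⟨h3, e⟩
    obtain ⟨t, ht, hte⟩ := Finset.mem_image.1 this
    rw [φ.injective hte] at ht
    simp only [T, Finset.mem_filter, Finset.mem_univ, true_and] at ht
    omega

/-- An automorphism of odd order is conjugation by a permutation. -/
theorem mem_range_of_odd_order {n : ℕ} (hn : 5 ≤ n) (φ : MulAut (alternatingGroup (Fin n))) (h : Odd (orderOf φ)) :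
    φ ∈ (MulAut.conjNormal : Perm (Fin n) →* MulAut (alternatingGroup (Fin n))).range := by
  obtain ⟨k, hk⟩ := h
  have : φ = (φ * φ) ^ (k + 1) := by
    have h0 : φ ^ (2 * k + 1) = 1 := by rw [← hk]; exact pow_orderOf_eq_one φ
    rw [← sq, ← pow_mul, show 2 * (k + 1) = (2 * k + 1) + 1 by ring, pow_succ, h0, one_mul]
  rw [this]
  exact Subgroup.pow_mem _ (sq_mem_range hn φ) _

end CfsgLib.AltAutSq
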